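import Cfsg.Agent.Lib.Helper39.SqfDeg.Defs
import Cfsg.Agent.Lib.Helper1.FittingPrimary
import Cfsg.Agent.Lib.Helper55.Cores

/-!
# S5010, package [R]

Basic facts on `R = O_{p'}(F(G))`.
-/

set_option autoImplicit false

namespace Cfsg.Agent.Lib.Helper1.SqfDeg

universe u

open Cfsg.Agent.Lib.Helper39.SqfDeg

theorem RR_le_fitting (p : ℕ) (G : Type*) [Group G] : RR p G ≤ Cfsg.fittingSubgroup G :=
  inf_le_right

theorem card_RR_coprime (p : ℕ) (G : Type*) [Group G] [Finite G] :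
    (Nat.card (RR p G)).Coprime p :=
  Nat.Coprime.coprime_dvd_left (Subgroup.card_dvd_of_le inf_le_left)
    (Cfsg.Agent.Lib.Helper22.card_pPrimeCore_coprime p G)

theorem RR_isNilpotent (p : ℕ) (G : Type*) [Group G] [Finite G] :
    Group.IsNilpotent (RR p G) := by
  have hF : Group.IsNilpotent (Cfsg.fittingSubgroup G) :=
    Cfsg.Agent.Lib.Helper71.fittingSubgroup_isNilpotent
  exact Group.nilpotent_of_mulEquiv (Subgroup.subgroupOfEquivOfLe (RR_le_fitting p G))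

theorem pow_mem_RR (p : ℕ) [Fact p.Prime] (G : Type*) [Group G] [Finite G] (z : G)
    (hz : z ∈ Cfsg.fittingSubgroup G) : ∃ j : ℕ, z ^ (p ^ j) ∈ RR p G := by
  have hp : p.Prime := Fact.out
  obtain ⟨j, m, hm, hjm⟩ := Nat.exists_eq_pow_mul_and_not_dvd (orderOf_pos z).ne' p hp.ne_one
  refine ⟨j, ?_, Subgroup.pow_mem _ hz _⟩
  have hy : (z ^ (p ^ j)) ^ m = 1 := by rw [← pow_mul, ← hjm, pow_orderOf_eq_one]
  apply Cfsg.Agent.Lib.Helper1.mem_of_primePow_pow_mem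
  intro k hk
  obtain ⟨q, e, hq, he, hqe⟩ := hk
  have hq' : q.Prime := Nat.prime_iff.2 hq
  have : Fact q.Prime := ⟨hq'⟩
  have hqp : q ≠ p := by
    rintro rfl
    have h1 : orderOf ((z ^ (q ^ j)) ^ k) ∣ m :=
      orderOf_dvd_of_pow_eq_one (by rw [← pow_mul, mul_comm, pow_mul, hy, one_pow])
    rw [← hqe] at h1
    exact hm ((dvd_pow_self q he.ne').trans h1)
  have hmem : (z ^ (p ^ j)) ^ k ∈ Cfsg.pCore q G :=
    Cfsg.Agent.Lib.Helper1.mem_pCore_of_mem_fitting _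
      (Subgroup.pow_mem _ (Subgroup.pow_mem _ hz _) _) e (by rw [hqe]; exact pow_orderOf_eq_one _)
  have hN : (Cfsg.pCore q G).Normal := Cfsg.Agent.Lib.Helper22.pCore_normal' q G
  have hcop : (Nat.card (Cfsg.pCore q G)).Coprime p := by
    obtain ⟨n, hn⟩ := IsPGroup.iff_card.1 (Cfsg.Agent.Lib.Helper55.pCore_isPGroup q G)
    rw [hn]
    exact Nat.Coprime.pow_left n ((Nat.coprime_primes hq' hp).2 hqp)
  exact Cfsg.Agent.Lib.Helper22.le_pPrimeCore_of_normal p hN hcop hmem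

theorem disjoint_pCore_RR (p : ℕ) [Fact p.Prime] (G : Type*) [Group G] [Finite G] :
    Disjoint (Cfsg.pCore p G) (RR p G) := by
  rw [Subgroup.disjoint_def]
  intro x hx hxR
  obtain ⟨k, hk⟩ := (Cfsg.Agent.Lib.Helper55.pCore_isPGroup p G) ⟨x, hx⟩
  have hk' : x ^ (p ^ k) = 1 := by
    have := congrArg Subtype.val hk
    simpa using this
  have h1 : orderOf x ∣ p ^ k := orderOf_dvd_of_pow_eq_one hk'
  have h2 : orderOf x ∣ Nat.card (RR p G) := by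
    have := orderOf_dvd_natCard (⟨x, hxR⟩ : RR p G)
    rwa [Subgroup.orderOf_mk] at this
  have h3 : (orderOf x).Coprime (p ^ k) :=
    Nat.Coprime.pow_right k (Nat.Coprime.coprime_dvd_left h2 (card_RR_coprime p G))
  have h4 : orderOf x = 1 := Nat.Coprime.eq_one_of_dvd h3 h1
  exact orderOf_eq_one_iff.1 h4

theorem conj_eq_conj_RR (p : ℕ) [Fact p.Prime] (G : Type*) [Group G] [Finite G] (z : G)
    (hz : z ∈ Cfsg.fittingSubgroup G) :
    ∃ b ∈ RR p G, ∀ r ∈ RR p G, z * r * z⁻¹ = b * r * b⁻¹ := by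
  obtain ⟨j, hj⟩ := pow_mem_RR p G z hz
  have hcop : (p ^ j).Coprime (orderOf (z ^ (p ^ j))) := by
    have h1 : orderOf (z ^ (p ^ j)) ∣ Nat.card (RR p G) := by
      have := orderOf_dvd_natCard (⟨z ^ (p ^ j), hj⟩ : RR p G)
      rwa [Subgroup.orderOf_mk] at this
    exact Nat.Coprime.pow_left j
      (Nat.Coprime.symm (Nat.Coprime.coprime_dvd_left h1 (card_RR_coprime p G)))
  obtain ⟨s, hs⟩ := exists_pow_eq_self_of_coprime hcop
  have hbR : (z ^ (p ^ j)) ^ s ∈ RR p G := Subgroup.pow_mem _ hj s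
  have hbz : Commute z ((z ^ (p ^ j)) ^ s) :=
    Commute.pow_right (Commute.pow_right (Commute.refl z) _) _
  have hbp : ((z ^ (p ^ j)) ^ s) ^ (p ^ j) = z ^ (p ^ j) := by
    rw [← pow_mul, mul_comm, pow_mul]; exact hs
  have ha1 : (z * ((z ^ (p ^ j)) ^ s)⁻¹) ^ (p ^ j) = 1 := by
    rw [(hbz.inv_right).mul_pow, inv_pow, hbp, mul_inv_cancel]
  have haF : z * ((z ^ (p ^ j)) ^ s)⁻¹ ∈ Cfsg.fittingSubgroup G :=
    mul_mem hz (inv_mem (RR_le_fitting p G hbR))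
  have haP : z * ((z ^ (p ^ j)) ^ s)⁻¹ ∈ Cfsg.pCore p G :=
    Cfsg.Agent.Lib.Helper1.mem_pCore_of_mem_fitting _ haF j ha1
  refine ⟨(z ^ (p ^ j)) ^ s, hbR, ?_⟩
  intro r hr
  have hN1 : (Cfsg.pCore p G).Normal := Cfsg.Agent.Lib.Helper22.pCore_normal' p G
  have hN2 : (RR p G).Normal := inferInstance
  have hbr : (z ^ (p ^ j)) ^ s * r * ((z ^ (p ^ j)) ^ s)⁻¹ ∈ RR p G := hN2.conj_mem r hr _
  have hcomm := Subgroup.commute_of_normal_of_disjoint _ _ hN1 hN2 (disjoint_pCore_RR p G)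
    _ _ haP hbr
  have h5 := hcomm.eq
  calc z * r * z⁻¹
      = (z * ((z ^ (p ^ j)) ^ s)⁻¹ * ((z ^ (p ^ j)) ^ s * r * ((z ^ (p ^ j)) ^ s)⁻¹))
          * (z * ((z ^ (p ^ j)) ^ s)⁻¹)⁻¹ := by group
    _ = ((z ^ (p ^ j)) ^ s * r * ((z ^ (p ^ j)) ^ s)⁻¹ * (z * ((z ^ (p ^ j)) ^ s)⁻¹))
          * (z * ((z ^ (p ^ j)) ^ s)⁻¹)⁻¹ := by rw [h5]
    _ = (z ^ (p ^ j)) ^ s * r * ((z ^ (p ^ j)) ^ s)⁻¹ := by group

theorem pkgR : PkgR.{u} := by
  intro G _ _ p _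
  exact ⟨card_RR_coprime p G, RR_isNilpotent p G, pow_mem_RR p G, conj_eq_conj_RR p G⟩

end Cfsg.Agent.Lib.Helper1.SqfDeg
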