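import Cfsg.Agent.Lib.Helper39.SqfDeg.Defs
import Cfsg.Agent.Lib.Helper1.SqfDeg.R

/-!
# S5010, package [CLA]

`C_P(R) ≤ F(G)` when `P` is normal and `P F / F` is a `p`-group, `R = O_{p'}(F(G))`.
-/

set_option autoImplicit false

namespace Cfsg.Agent.Lib.Helper1.SqfDeg

universe u

open Cfsg.Agent.Lib.Helper39.SqfDeg

theorem pkgClaimA : PkgClaimA.{u} := by
  intro G _ _ p _ P _ hP
  have hCn : (P ⊓ Subgroup.centralizer (RR p G : Set G)).Normal := inferInstance
  refine Cfsg.Agent.Lib.Helper71.le_fittingSubgroup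
    (P ⊓ Subgroup.centralizer (RR p G : Set G)) ?_
  have hZn : ((RR p G).subgroupOf (P ⊓ Subgroup.centralizer (RR p G : Set G))).Normal :=
    inferInstance
  have hZc : (RR p G).subgroupOf (P ⊓ Subgroup.centralizer (RR p G : Set G)) ≤
      Subgroup.center ↥(P ⊓ Subgroup.centralizer (RR p G : Set G)) := by
    intro x hx
    rw [Subgroup.mem_center_iff]
    intro g
    have hg : (g : G) ∈ Subgroup.centralizer (RR p G : Set G) := g.2.2
    have h1 := hg x.1 (Subgroup.mem_subgroupOf.1 hx)
    apply Subtype.ext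
    rw [Subgroup.coe_mul, Subgroup.coe_mul]
    exact h1.symm
  have hpq : IsPGroup p
      (↥(P ⊓ Subgroup.centralizer (RR p G : Set G)) ⧸
        (RR p G).subgroupOf (P ⊓ Subgroup.centralizer (RR p G : Set G))) := by
    intro q
    induction q using QuotientGroup.induction_on with
    | H x =>
      obtain ⟨k, hk⟩ := hP x.1 x.2.1
      obtain ⟨j, hj⟩ := pow_mem_RR p G _ hk
      refine ⟨k + j, ?_⟩
      rw [← QuotientGroup.mk_pow, QuotientGroup.eq_one_iff, Subgroup.mem_subgroupOf]
      rw [Subgroup.coe_pow, pow_add, pow_mul]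
      exact hj
  have hnilQ : Group.IsNilpotent
      (↥(P ⊓ Subgroup.centralizer (RR p G : Set G)) ⧸
        (RR p G).subgroupOf (P ⊓ Subgroup.centralizer (RR p G : Set G))) := hpq.isNilpotent
  exact Subgroup.isNilpotent_of_ker_le_center
    (QuotientGroup.mk' ((RR p G).subgroupOf (P ⊓ Subgroup.centralizer (RR p G : Set G))))
    (by rw [QuotientGroup.ker_mk']; exact hZc)

end Cfsg.Agent.Lib.Helper1.SqfDeg
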