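import Cfsg.Agent.Lib.Helper39.SqfDeg.Defs
import Cfsg.Agent.Lib.Helper1.FittingPrimary
import Cfsg.Agent.Lib.Helper55.Cores
import Cfsg.Agent.S0044

/-!
# S5010, package [STRUCT]

A finite solvable group all of whose `O_p` have order at most `p` is metabelian.
-/

set_option autoImplicit false

namespace Cfsg.Agent.Lib.Helper1.SqfDeg

universe u

open Cfsg.Agent.Lib.Helper39.SqfDeg
open scoped commutatorElement

/-- the automorphism group of a cyclic group is commutative -/
theorem mulAut_comm_of_isCyclic {N : Type*} [Group N] [IsCyclic N] (σ τ : MulAut N) :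
    σ * τ = τ * σ := by
  apply (IsCyclic.mulAutMulEquiv N).injective
  rw [map_mul, map_mul, mul_comm]

/-- commutators centralize a cyclic normal subgroup -/
theorem commutator_le_centralizer_of_isCyclic {Q : Type*} [Group Q] (N : Subgroup Q) [N.Normal]
    [IsCyclic N] : commutator Q ≤ Subgroup.centralizer (N : Set Q) := by
  rw [commutator_def, Subgroup.commutator_le]
  intro x _ y _
  rw [Subgroup.mem_centralizer_iff]
  intro n hn
  have h1 : (MulAut.conjNormal ⁅x, y⁆ : MulAut N) = 1 := by
    rw [commutatorElement_def, map_mul, map_mul, map_mul, map_inv, map_inv]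
    rw [mulAut_comm_of_isCyclic (MulAut.conjNormal x : MulAut N) (MulAut.conjNormal y)]
    group
  have h2 := congrArg (fun f : MulAut N => ((f ⟨n, hn⟩ : N) : Q)) h1
  simp only [MulAut.conjNormal_apply, MulAut.one_apply] at h2
  calc n * ⁅x, y⁆ = (⁅x, y⁆ * n * ⁅x, y⁆⁻¹) * ⁅x, y⁆ := by rw [h2]
    _ = ⁅x, y⁆ * n := by group

theorem pkgStruct : PkgStruct.{u} := by
  intro Q _ _ _ h
  have h1 : ∀ p : ℕ, p.Prime →
      Cfsg.pCore p Q ≤ Subgroup.centralizer (commutator Q : Set Q) := by
    intro p hp
    have : Fact p.Prime := ⟨hp⟩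
    have hN : (Cfsg.pCore p Q).Normal := Cfsg.Agent.Lib.Helper22.pCore_normal' p Q
    have hpg : IsPGroup p (Cfsg.pCore p Q) := Cfsg.Agent.Lib.Helper55.pCore_isPGroup p Q
    have hcyc : IsCyclic (Cfsg.pCore p Q) := by
      obtain ⟨k, hk⟩ := (IsPGroup.iff_card.1 hpg)
      have hle := h p hp
      rw [hk] at hle
      rcases Nat.lt_or_ge k 2 with hk2 | hk2
      · interval_cases k
        · have : Subsingleton (Cfsg.pCore p Q) := by
            rw [← Finite.card_le_one_iff_subsingleton, hk]; simp
          exact isCyclic_of_subsingleton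
        · exact isCyclic_of_prime_card (p := p) (by rw [hk, pow_one])
      · exfalso
        have : p ^ 2 ≤ p ^ k := Nat.pow_le_pow_right hp.pos hk2
        have h3 : p * p ≤ p := by
          calc p * p = p ^ 2 := by ring
            _ ≤ p ^ k := this
            _ ≤ p := hle
        have := hp.two_le
        nlinarith
    rw [Subgroup.le_centralizer_iff]
    exact commutator_le_centralizer_of_isCyclic (Cfsg.pCore p Q)
  have h2 : Cfsg.fittingSubgroup Q ≤ Subgroup.centralizer (commutator Q : Set Q) :=
    Cfsg.Agent.Lib.Helper1.fitting_le_of_pCore_le _ h1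
  have h3 : commutator Q ≤ Subgroup.centralizer (Cfsg.fittingSubgroup Q : Set Q) :=
    Subgroup.le_centralizer_iff.1 h2
  have h4 : commutator Q ≤ Cfsg.fittingSubgroup Q := h3.trans Cfsg.Agent.S0044.result
  have h5 : commutator Q ≤ Subgroup.centralizer (commutator Q : Set Q) :=
    h3.trans (Subgroup.centralizer_le h4)
  have h6 : derivedSeries Q 2 = ⁅commutator Q, commutator Q⁆ := by
    rw [show (2 : ℕ) = 1 + 1 from rfl, derivedSeries_succ, derivedSeries_one]
  rw [h6, Subgroup.commutator_eq_bot_iff_le_centralizer]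
  exact h5

end Cfsg.Agent.Lib.Helper1.SqfDeg
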